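import Cfsg.Agent.H929.TB.G2Dim
import Cfsg.Agent.H357.EP.Inv27

/-!
# S5745: `PSp₄(8)`, `G₂(8)` are not subgroups of `E₆(q)`, `²E₆(q)`, `F₄(q)`; `G₂(8)` not of `E₇(q)`; `q` odd (helper929)

* `not_inE6_psp` : `PSp₄(F)`, `|F| ≥ 8` even, contains an elementary abelian subgroup of order `|F| ^ 3 > 64`;
* `not_inE6_g2_eight`, `not_e7_g2_eight` : `G₂(8)` has no faithful representation of degree `< 256` in odd characteristic.
-/

set_option autoImplicit false
set_option linter.unusedSectionVars false

namespace Cfsg.Agent.H929.TB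

open Cfsg Cfsg.Lie Matrix

section Sp

variable {F : Type*} [Field F]

/-- `[1, S; 0, 1]` with `S = [a, b; b, c]` -/
def spu (x : F × F × F) : Matrix.symplecticGroup (Fin 2) F :=
  ⟨Matrix.fromBlocks 1 !![x.1, x.2.1; x.2.1, x.2.2] 0 1, by
    rw [SymplecticGroup.mem_iff, J, Matrix.fromBlocks_transpose, Matrix.fromBlocks_multiply,
      Matrix.fromBlocks_multiply]
    congr 1
    · ext i j
      fin_cases i <;> fin_cases j <;> simp
    · simp
    · simp
    · simp⟩

/-- `[1, 0; 1, 1]` -/
def spl : Matrix.symplecticGroup (Fin 2) F :=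
  ⟨Matrix.fromBlocks 1 0 1 1, by
    rw [SymplecticGroup.mem_iff, J, Matrix.fromBlocks_transpose, Matrix.fromBlocks_multiply,
      Matrix.fromBlocks_multiply]
    congr 1 <;> simp⟩

theorem spu_mul (x y : F × F × F) : spu (x + y) = spu x * spu y := by
  apply Subtype.ext
  show Matrix.fromBlocks 1 _ 0 1 = Matrix.fromBlocks 1 _ 0 1 * Matrix.fromBlocks 1 _ 0 1
  rw [Matrix.fromBlocks_multiply]
  congr 1
  · simp
  · ext i j
    fin_cases i <;> fin_cases j <;> simp [add_comm]
  · simp
  · simp

theorem spu_center {x : F × F × F} (h : spu x ∈ Subgroup.center (Matrix.symplecticGroup (Fin 2) F)) : x = 0 := by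
  have h1 := congrArg Subtype.val (Subgroup.mem_center_iff.1 h spl)
  have h2 : (Matrix.fromBlocks 1 0 1 1 : Matrix (Fin 2 ⊕ Fin 2) (Fin 2 ⊕ Fin 2) F) *
      Matrix.fromBlocks 1 !![x.1, x.2.1; x.2.1, x.2.2] 0 1 =
      Matrix.fromBlocks 1 !![x.1, x.2.1; x.2.1, x.2.2] 0 1 * Matrix.fromBlocks 1 0 1 1 := h1
  rw [Matrix.fromBlocks_multiply, Matrix.fromBlocks_multiply] at h2
  have h3 := (Matrix.fromBlocks_inj.1 h2).1
  obtain ⟨a, b, c⟩ := x
  have e1 := congrFun (congrFun h3 0) 0
  have e2 := congrFun (congrFun h3 0) 1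
  have e3 := congrFun (congrFun h3 1) 1
  simp at e1 e2 e3
  have e2' : b = 0 := e2.symm
  subst e1 e2' e3
  rfl

/-- the homomorphism onto the elementary abelian subgroup -/
def sph (F : Type*) [Field F] : Multiplicative (F × F × F) →* PSp 2 F where
  toFun x := QuotientGroup.mk (spu (Multiplicative.toAdd x))
  map_one' := by
    have h : spu (0 : F × F × F) = 1 := by
      have := spu_mul (0 : F × F × F) 0
      rw [add_zero] at this
      exact (mul_eq_left.1 this.symm)
    show (QuotientGroup.mk (spu (0 : F × F × F)) : PSp 2 F) = 1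
    rw [h]
    rfl
  map_mul' x y := by
    show (QuotientGroup.mk (spu (Multiplicative.toAdd x + Multiplicative.toAdd y)) : PSp 2 F) = _
    rw [spu_mul]
    rfl

theorem sph_injective : Function.Injective (sph F) := by
  rw [injective_iff_map_eq_one]
  intro x h
  have h1 : spu (Multiplicative.toAdd x) ∈ Subgroup.center (Matrix.symplecticGroup (Fin 2) F) :=
    (QuotientGroup.eq_one_iff _).1 h
  have h2 := spu_center h1
  exact h2

theorem two_eq_zero {F : Type*} [Field F] [Fintype F] {n : ℕ} (h : Fintype.card F = 2 ^ n) : (2 : F) = 0 := by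
  have h0 : ((2 ^ n : ℕ) : F) = 0 := by
    rw [← h]
    exact FiniteField.cast_card_eq_zero F
  rw [Nat.cast_pow, Nat.cast_ofNat] at h0
  have hn : n ≠ 0 := by
    rintro rfl
    rw [pow_zero] at h
    have := Fintype.one_lt_card (α := F)
    omega
  exact (pow_eq_zero_iff hn).1 h0

/-- **`PSp₄(8)` is not a subgroup of `E₆(q)`, `²E₆(q)`, `F₄(q)`, `q` odd** -/
theorem not_inE6_psp {F : Type*} [Field F] [Fintype F] (h8 : Fintype.card F = 8) {T : Type*} [Group T]
    (e : T ≃* PSp 2 F) (h : H357.EP.InE6 T) : False := by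
  have h' : H357.EP.InE6 (PSp 2 F) := h.mono e.symm.toMonoidHom e.symm.injective
  have h2 : (2 : F) = 0 := two_eq_zero (n := 3) h8
  refine h'.no_seven (sph F).range ?_ ?_
  · rintro _ ⟨x, rfl⟩
    rw [← map_mul]
    have h3 : x * x = 1 := by
      show Multiplicative.ofAdd (Multiplicative.toAdd x + Multiplicative.toAdd x) = 1
      rw [← two_nsmul]
      have : (2 • Multiplicative.toAdd x : F × F × F) = 0 := by
        obtain ⟨a, b, c⟩ := x
        show ((2 • a, 2 • b, 2 • c) : F × F × F) = 0
        rw [two_nsmul, two_nsmul, two_nsmul, ← two_mul, ← two_mul, ← two_mul, h2, zero_mul, zero_mul, zero_mul]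
        rfl
      rw [this]
      rfl
    rw [h3, map_one]
  · rw [← Nat.card_congr (MonoidHom.ofInjective (sph_injective (F := F))).toEquiv, Nat.card_congr Multiplicative.toAdd,
      Nat.card_prod, Nat.card_prod, Nat.card_eq_fintype_card, h8]
    norm_num

end Sp

/-- **`G₂(8)` has no faithful representation of degree `< 256` in odd characteristic** -/
theorem not_gl_g2_eight {F : Type*} [Field F] [Fintype F] (h8 : Fintype.card F = 8) {T : Type*} [Group T]
    (e : T ≃* ↥(chevG2.group F)) {k : Type*} [Field k] (hk : (2 : k) ≠ 0) {ι : Type*} [Fintype ι] [DecidableEq ι]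
    (hι : Fintype.card ι < 256) (f : T →* GL ι k) (hf : Function.Injective f) : False := by
  have h1 := G2Dim.card_le (two_eq_zero (n := 3) h8) hk (f.comp e.symm.toMonoidHom) (hf.comp e.symm.injective)
  rw [h8] at h1
  omega

theorem two_ne_zero_of_odd {k : Type*} [Field k] [Fintype k] (h : Odd (Fintype.card k)) : (2 : k) ≠ 0 := by
  obtain ⟨m, hm⟩ := h
  intro h2
  have h0 : ((2 * m + 1 : ℕ) : k) = 0 := by
    rw [← hm]
    exact FiniteField.cast_card_eq_zero k
  rw [Nat.cast_add, Nat.cast_mul, Nat.cast_ofNat, h2, zero_mul, zero_add, Nat.cast_one] at h0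
  exact one_ne_zero h0

/-- **`G₂(8)` is not a subgroup of `E₆(q)`, `²E₆(q)`, `F₄(q)`, `q` odd** -/
theorem not_inE6_g2_eight {F : Type*} [Field F] [Fintype F] (h8 : Fintype.card F = 8) {T : Type*} [Group T]
    (e : T ≃* ↥(chevG2.group F)) (h : H357.EP.InE6 T) : False := by
  obtain ⟨K, i1, i2, ho, g, hg⟩ := h
  exact not_gl_g2_eight h8 e (two_ne_zero_of_odd ho) (by decide +kernel) ((chevE6.group K).subtype.comp g)
    (Subtype.val_injective.comp hg)

/-- **`G₂(8)` is not a subgroup of `E₇(q)`, `q` odd** -/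
theorem not_e7_g2_eight {F : Type*} [Field F] [Fintype F] (h8 : Fintype.card F = 8) {T : Type*} [Group T]
    (e : T ≃* ↥(chevG2.group F)) {K : Type*} [Field K] [Fintype K] (ho : Odd (Fintype.card K))
    (g : T →* ↥(chevE7.group K)) (hg : Function.Injective g) : False :=
  not_gl_g2_eight h8 e (two_ne_zero_of_odd ho) (by decide +kernel) ((chevE7.group K).subtype.comp g)
    (Subtype.val_injective.comp hg)

end Cfsg.Agent.H929.TB
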